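import Cfsg.Agent.Lib.BlockCover.Basic
import Cfsg.Agent.Lib.CharDeep.ThompsonDeg
import Mathlib.Tactic

/-!
# Thompson's theorem for the principal block

If `p` divides the degree of each nonlinear member of the principal `p`-block of `G`, then `G` has a
normal `p`-complement.
-/

set_option autoImplicit false
set_option linter.unusedSectionVars false
set_option linter.style.haveILetI false

namespace Cfsg.Agent.Lib.BlockCover.Thompson

open Cfsg Module
open Cfsg.Agent.Lib.Char.Basic Cfsg.Agent.Lib.Char.Ortho Cfsg.Agent.Lib.Char.Complete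
open Cfsg.Agent.Lib.Char.Linear Cfsg.Agent.Lib.Char.Degree
open Cfsg.Agent.Lib.CharDeep.Det Cfsg.Agent.Lib.CharDeep.LinearChar
open Cfsg.Agent.Lib.CharDeep.ThompsonDeg
open Cfsg.Agent.Lib.Blocks.Local Cfsg.Agent.Lib.Blocks.Central
open Cfsg.Agent.Lib.BlockCover.Basic

universe u

variable {G : Type u} [Group G] [Finite G] {M : Ideal AlgInt} {p : ℕ}

/-- Homomorphisms to `ℂˣ` as functions. -/
def homFn {H : Type*} [Group H] (ν : H →* ℂˣ) : H → ℂ := fun x => ((ν x : ℂˣ) : ℂ)

theorem homFn_one {H : Type*} [Group H] (ν : H →* ℂˣ) : homFn ν 1 = 1 := by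
  simp [homFn]

theorem isIntegral_homFn {H : Type*} [Group H] [Finite H] (ν : H →* ℂˣ) (x : H) :
    IsIntegral ℤ (homFn ν x) := by
  apply Cfsg.Agent.Lib.BlockT.Local.isIntegral_of_pow_eq_one (n := Nat.card H) Nat.card_pos
  rw [homFn, ← Units.val_pow_eq_pow_val, ← map_pow, pow_card_eq_one']
  simp

theorem memLocalRing_homFn [hM : M.IsPrime] {H : Type*} [Group H] [Finite H] (ν : H →* ℂˣ) (x : H) :
    MemLocalRing M (homFn ν x) :=
  Cfsg.Agent.Lib.BlockT.Local.memLocalRing_of_isIntegral (isIntegral_homFn ν x) hM.ne_top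

theorem centralChar_homFn {H : Type*} [Group H] (ν : H →* ℂˣ) (x : H) :
    centralChar (homFn ν) x = ((Subgroup.centralizer ({x} : Set H)).index : ℂ) * homFn ν x := by
  rw [centralChar, homFn_one, div_one]

theorem centralChar_one' {H : Type*} [Group H] (x : H) :
    centralChar (fun _ : H => (1 : ℂ)) x = ((Subgroup.centralizer ({x} : Set H)).index : ℂ) := by
  rw [centralChar]
  simp

/-- The subgroup of homomorphisms `H → ℂˣ` in the principal block. -/
def blockHoms (M : Ideal AlgInt) [hM : M.IsPrime] (H : Type*) [Group H] [Finite H] :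
    Subgroup (H →* ℂˣ) where
  carrier := {ν | SameBlock M (fun _ => (1 : ℂ)) (homFn ν)}
  one_mem' := by
    intro x
    have : homFn (1 : H →* ℂˣ) = fun _ => (1 : ℂ) := by
      funext y
      simp [homFn]
    rw [this, sub_self]
    exact memLocalIdeal_zero
  mul_mem' := by
    intro a b ha hb x
    have h1 := ha x
    have h2 := hb x
    rw [centralChar_one', centralChar_homFn] at h1 h2 ⊢
    have h3 := memLocalIdeal_add h1 (memLocalIdeal_mul_left (memLocalRing_homFn a x) h2)
    convert h3 using 1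
    simp only [homFn, MonoidHom.mul_apply, Units.val_mul]
    ring
  inv_mem' := by
    intro a ha x
    have h1 := ha x
    rw [centralChar_one', centralChar_homFn] at h1 ⊢
    have h3 := memLocalIdeal_neg (memLocalIdeal_mul_left (memLocalRing_homFn a⁻¹ x) h1)
    convert h3 using 1
    have h4 : homFn a⁻¹ x * homFn a x = 1 := by
      simp only [homFn, MonoidHom.inv_apply]
      rw [← Units.val_mul]
      simp
    linear_combination ((Subgroup.centralizer ({x} : Set H)).index : ℂ) * (-h4)

section Main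

variable [hp : Fact p.Prime] (L : Subgroup G) [hL : L.Normal]

theorem conjIrr_mem_principal (hM : M.IsPrime) (g : G) {θ : IrrCharacter L}
    (hθ : θ ∈ principalBlock M L) : conjIrr L g θ ∈ principalBlock M L := by
  have h1 := Cfsg.Agent.Lib.BlockH.Pairs.sameBlock_comp_mulEquiv
    (MulAut.conjNormal g⁻¹ : L ≃* L) (θ := fun _ : L => (1 : ℂ)) (ψ := (θ : L → ℂ)) hθ
  exact h1

/-- **Thompson's theorem for the principal block**, for a minimal normal subgroup `L` of `p`-power
index. -/
theorem not_dvd_card_of_minimal (hM : IsPModular p M)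
    (hdeg : ∀ χ : IrrCharacter G, χ ∈ principalBlock M G →
      (χ : G → ℂ) 1 = 1 ∨ p ∣ charDegree (χ : G → ℂ))
    (hLidx : ∃ k, L.index = p ^ k)
    (hmin : ∀ K : Subgroup G, K.Normal → (∃ k, K.index = p ^ k) → K ≤ L → K = L) :
    ¬ p ∣ Nat.card L := by
  classical
  have hpp : p.Prime := hp.out
  haveI hMp : M.IsPrime := hM.2.1.isPrime
  let _ : Fintype G := Fintype.ofFinite G
  let _ : Fintype L := Fintype.ofFinite L
  have := finite_irrCharacter (G := L)
  let _ : Fintype (IrrCharacter L) := Fintype.ofFinite _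
  obtain ⟨k, hk⟩ := hLidx
  have hQ : IsPGroup p (G ⧸ L) := IsPGroup.of_card (n := k) (by rw [← hk]; rfl)
  letI aG : MulAction G (IrrCharacter L) := irrAction L
  have hsmulG : ∀ (g : G) (θ : IrrCharacter L), g • θ = conjIrr L g θ := fun g θ => rfl
  let φ : G →* Equiv.Perm (IrrCharacter L) := MulAction.toPermHom G (IrrCharacter L)
  have hker : L ≤ φ.ker := by
    intro n hn
    rw [MonoidHom.mem_ker]
    apply Equiv.ext
    intro θ
    change conjIrr L n θ = θ
    apply Subtype.ext
    funext x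
    change (θ : L → ℂ) (MulAut.conjNormal n⁻¹ x) = _
    have h1 : MulAut.conjNormal n⁻¹ x = (⟨n, hn⟩ : L)⁻¹ * x * (⟨n, hn⟩ : L) := by
      apply Subtype.ext
      simp
    rw [h1]
    have := isClassFunction_of_isIrrCharacter θ.2 x (⟨n, hn⟩ : L)⁻¹
    simpa using this
  let ψ : G ⧸ L →* Equiv.Perm (IrrCharacter L) := QuotientGroup.lift L φ hker
  letI aQ : MulAction (G ⧸ L) (IrrCharacter L) := MulAction.compHom _ ψ
  have hsmulQ : ∀ (g : G) (θ : IrrCharacter L), ((g : G ⧸ L)) • θ = conjIrr L g θ := fun g θ => rfl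
  set b := principalBlock M L with hb
  let w : IrrCharacter L → ℕ := fun θ => if θ ∈ b then charDegree (θ : L → ℂ) ^ 2 else 0
  have hdegconj : ∀ (g : G) (θ : IrrCharacter L),
      charDegree (conjIrr L g θ : L → ℂ) = charDegree (θ : L → ℂ) := by
    intro g θ
    apply charDegree_eq_of_eq_natCast
    rw [conjIrr_apply, map_one, ← charDegree_natCast (isCharacter_of_isIrrCharacter θ.2)]
  have hbconj : ∀ (g : G) (θ : IrrCharacter L), conjIrr L g θ ∈ b ↔ θ ∈ b := by
    intro g θ
    refine ⟨fun h => ?_, conjIrr_mem_principal L hMp g⟩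
    have h1 := conjIrr_mem_principal L hMp g⁻¹ h
    have h2 : conjIrr L g⁻¹ (conjIrr L g θ) = θ := by
      have h3 : (g⁻¹ : G) • (g • θ) = θ := inv_smul_smul g θ
      exact h3
    rwa [h2] at h1
  have hw : ∀ (q : G ⧸ L) (θ : IrrCharacter L), w (q • θ) = w θ := by
    intro q θ
    obtain ⟨g, rfl⟩ := QuotientGroup.mk_surjective q
    simp only [w]
    rw [hsmulQ, hdegconj]
    simp only [hbconj]
  let _ : Fintype (MulAction.fixedPoints (G ⧸ L) (IrrCharacter L)) := Fintype.ofFinite _
  have hcong := sum_modEq_sum_fixed (p := p) hQ w hw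
  -- fixed points are invariant
  have hfix : ∀ θ : MulAction.fixedPoints (G ⧸ L) (IrrCharacter L), ∀ (g : G) (n : L),
      ((θ : IrrCharacter L) : L → ℂ) ⟨g * n * g⁻¹, hL.conj_mem (n : G) n.2 g⟩ =
        ((θ : IrrCharacter L) : L → ℂ) n := by
    intro θ g n
    have h1 := θ.2 ((g⁻¹ : G) : G ⧸ L)
    rw [hsmulQ] at h1
    have h2 := congrFun (congrArg Subtype.val h1) n
    rw [conjIrr_apply] at h2
    have h3 : (MulAut.conjNormal (g⁻¹)⁻¹ n : L) = ⟨g * n * g⁻¹, hL.conj_mem (n : G) n.2 g⟩ := by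
      apply Subtype.ext
      simp
    rw [h3] at h2
    exact h2
  -- p'-degree fixed points in the block are linear
  have hlin : ∀ θ : MulAction.fixedPoints (G ⧸ L) (IrrCharacter L), (θ : IrrCharacter L) ∈ b →
      ¬ p ∣ charDegree ((θ : IrrCharacter L) : L → ℂ) →
        ((θ : IrrCharacter L) : L → ℂ) 1 = 1 := by
    intro θ hθb hnd
    set d := charDegree ((θ : IrrCharacter L) : L → ℂ) with hd
    have hθc := isCharacter_of_isIrrCharacter (θ : IrrCharacter L).2
    have hd' : ((θ : IrrCharacter L) : L → ℂ) 1 = d := (charDegree_natCast hθc).symm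
    have hnO := not_dvd_detOrder L ⟨k, hk⟩ hmin hθc (hfix θ)
    have hcop : Nat.Coprime L.index (detOrder ((θ : IrrCharacter L) : L → ℂ) * d) := by
      rw [hk]
      apply Nat.Coprime.pow_left
      rw [Nat.Prime.coprime_iff_not_dvd hpp, hpp.dvd_mul]
      rintro (h | h)
      · exact hnO h
      · exact hnd h
    obtain ⟨χ, ⟨hχ, hχN, -⟩, -⟩ := Cfsg.Agent.S0867.result L _ (θ : IrrCharacter L).2 (hfix θ) d hd' hcop
    have hχ1 : χ 1 = d := by
      have := hχN 1
      simpa [hd'] using this
    have hχB : (⟨χ, hχ⟩ : IrrCharacter G) ∈ principalBlock M G := by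
      refine mem_principal_of_constituent hM ⟨k, hk⟩ ⟨χ, hχ⟩ (θ : IrrCharacter L) hθb ?_
      have h1 : (fun n : L => χ n) = ((θ : IrrCharacter L) : L → ℂ) := funext hχN
      change Cfsg.classInner (fun n : L => χ n) _ ≠ 0
      rw [h1, classInner_irr (θ : IrrCharacter L).2 (θ : IrrCharacter L).2, if_pos rfl]
      exact one_ne_zero
    rcases hdeg ⟨χ, hχ⟩ hχB with h | h
    · have h2 := hχN 1
      simp only [OneMemClass.coe_one] at h2
      rw [← h2]
      exact h
    · exfalso
      apply hnd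
      have : charDegree χ = d := charDegree_eq_of_eq_natCast hχ1
      simp only at h
      rwa [this] at h
  intro hpL
  have hsum0 : p ∣ ∑ θ, w θ :=
    dvd_sum_sq_of_dvd_card hM (Cfsg.Agent.Lib.Blocks.Third.isPBlock_principal M) hpL
  -- counting
  have hcastsum : ((∑ θ, w θ : ℕ) : ZMod p) =
      ((∑ θ : MulAction.fixedPoints (G ⧸ L) (IrrCharacter L), w θ : ℕ) : ZMod p) :=
    (ZMod.natCast_eq_natCast_iff _ _ _).mpr hcong
  rw [(ZMod.natCast_eq_zero_iff _ _).mpr hsum0] at hcastsum
  have hterm : ∀ θ : MulAction.fixedPoints (G ⧸ L) (IrrCharacter L),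
      ((w θ : ℕ) : ZMod p) = if ((θ : IrrCharacter L) ∈ b ∧ ((θ : IrrCharacter L) : L → ℂ) 1 = 1) then 1 else 0 := by
    intro θ
    by_cases hθb : (θ : IrrCharacter L) ∈ b
    · by_cases h : ((θ : IrrCharacter L) : L → ℂ) 1 = 1
      · rw [if_pos ⟨hθb, h⟩]
        have : charDegree ((θ : IrrCharacter L) : L → ℂ) = 1 := charDegree_eq_of_eq_natCast (by simpa using h)
        simp [w, this, hθb]
      · rw [if_neg (fun h' => h h'.2)]
        have hdvd : p ∣ charDegree ((θ : IrrCharacter L) : L → ℂ) := by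
          by_contra hnd
          exact h (hlin θ hθb hnd)
        simp only [w, if_pos hθb]
        rw [Nat.cast_pow, (ZMod.natCast_eq_zero_iff _ _).mpr hdvd]
        simp
    · rw [if_neg (fun h' => hθb h'.1)]
      simp [w, hθb]
  rw [Nat.cast_sum] at hcastsum
  simp only [hterm] at hcastsum
  rw [Finset.sum_boole] at hcastsum
  have hdvdb := (ZMod.natCast_eq_zero_iff _ _).mp hcastsum.symm
  -- bijection with the invariant homs in the block
  let A : Subgroup (L →* ℂˣ) := invHoms L ⊓ blockHoms M L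
  let e : A ≃ {θ : MulAction.fixedPoints (G ⧸ L) (IrrCharacter L) //
      (θ : IrrCharacter L) ∈ b ∧ ((θ : IrrCharacter L) : L → ℂ) 1 = 1} :=
    { toFun := fun ν => ⟨⟨⟨homFn (ν : L →* ℂˣ), isIrrCharacter_of_hom _⟩, by
          intro q
          obtain ⟨g, rfl⟩ := QuotientGroup.mk_surjective q
          rw [hsmulQ]
          apply Subtype.ext
          funext n
          rw [conjIrr_apply]
          have h3 : (MulAut.conjNormal g⁻¹ n : L) =
              ⟨g⁻¹ * n * g⁻¹⁻¹, hL.conj_mem (n : G) n.2 g⁻¹⟩ := by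
            apply Subtype.ext
            simp
          rw [h3]
          exact congrArg Units.val (ν.2.1 g⁻¹ n)⟩, ν.2.2, homFn_one _⟩
      invFun := fun θ => ⟨toHom (isCharacter_of_isIrrCharacter ((θ.1 : IrrCharacter L).2)) θ.2.2, by
          intro g n
          ext
          exact hfix θ.1 g n, by
          have h1 : homFn (toHom (isCharacter_of_isIrrCharacter ((θ.1 : IrrCharacter L).2)) θ.2.2) =
              ((θ.1 : IrrCharacter L) : L → ℂ) := rfl
          change SameBlock M _ (homFn _)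
          rw [h1]
          exact θ.2.1⟩
      left_inv := fun ν => by
        apply Subtype.ext
        ext
        rfl
      right_inv := fun θ => by
        apply Subtype.ext
        apply Subtype.ext
        apply Subtype.ext
        rfl }
  have hA : Finite A := Finite.of_equiv _ e.symm
  have hcardA : Nat.card A =
      (Finset.univ.filter (fun θ : MulAction.fixedPoints (G ⧸ L) (IrrCharacter L) =>
        (θ : IrrCharacter L) ∈ b ∧ ((θ : IrrCharacter L) : L → ℂ) 1 = 1)).card := by
    rw [Nat.card_congr e, Nat.card_eq_fintype_card, Fintype.card_subtype]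
  rw [← hcardA] at hdvdb
  obtain ⟨ν, hν⟩ := exists_prime_orderOf_dvd_card' (G := A) p hdvdb
  have hν1 : (ν : L →* ℂˣ) = 1 := by
    apply hom_eq_one_of_minimal L ⟨k, hk⟩ hmin (ν : L →* ℂˣ) ν.2.1
    intro n
    have h2 : ν ^ p = 1 := by rw [← hν]; exact pow_orderOf_eq_one _
    have h3 := congrArg (fun f : A => (f : L →* ℂˣ) n) h2
    simpa using h3
  have hν2 : ν = 1 := Subtype.ext hν1
  rw [hν2, orderOf_one] at hν
  exact hpp.one_lt.ne hν

/-- **Thompson's theorem for the principal block**. -/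
theorem exists_normal_complement (hM : IsPModular p M)
    (hdeg : ∀ χ : IrrCharacter G, χ ∈ principalBlock M G →
      (χ : G → ℂ) 1 = 1 ∨ p ∣ charDegree (χ : G → ℂ)) :
    ∃ L : Subgroup G, L.Normal ∧ (∃ k, L.index = p ^ k) ∧ ¬ p ∣ Nat.card L := by
  classical
  have hfin : ({K : Subgroup G | K.Normal ∧ ∃ k, K.index = p ^ k}).Finite := Set.toFinite _
  obtain ⟨L, hLmin⟩ := hfin.exists_minimal ⟨⊤, inferInstance, 0, by simp⟩
  obtain ⟨hLn, hLidx⟩ := hLmin.1
  refine ⟨L, hLn, hLidx, not_dvd_card_of_minimal L hM hdeg hLidx ?_⟩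
  intro K hKn hKidx hKL
  exact le_antisymm hKL (hLmin.2 ⟨hKn, hKidx⟩ hKL)

end Main

end Cfsg.Agent.Lib.BlockCover.Thompson
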